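import Mathlib.RingTheory.GradedAlgebra.Homogeneous.Maps
import Mathlib.RingTheory.Ideal.Quotient.Operations

/-!
# The quotient of a graded algebra by a homogeneous ideal

`gr 𝒜 I n` is the image of `𝒜 n` in `A ⧸ I`; `gradedAlgebra 𝒜 hI : GradedAlgebra (gr 𝒜 I)` for a homogeneous ideal
`I`, and `mkHom 𝒜 I : 𝒜 →+*ᵍ gr 𝒜 I` the quotient map.
-/

set_option autoImplicit false

namespace Groth.Agent.Ega2.H291.QuotGr

variable {R A : Type*} [CommRing R] [CommRing A] [Algebra R A] (𝒜 : ℕ → Submodule R A) [GradedAlgebra 𝒜] (I : Ideal A)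

/-- The image of `𝒜 n` in `A ⧸ I`. -/
def gr (n : ℕ) : Submodule R (A ⧸ I) := (𝒜 n).map (Ideal.Quotient.mkₐ R I).toLinearMap

omit [GradedAlgebra 𝒜] in
theorem mk_mem {n : ℕ} {a : A} (ha : a ∈ 𝒜 n) : Ideal.Quotient.mk I a ∈ gr 𝒜 I n := ⟨a, ha, rfl⟩

omit [GradedAlgebra 𝒜] in
theorem exists_of_mem {n : ℕ} {b : A ⧸ I} (hb : b ∈ gr 𝒜 I n) : ∃ a ∈ 𝒜 n, Ideal.Quotient.mk I a = b := hb

variable {I} (hI : I.IsHomogeneous 𝒜)

include hI in
theorem isInternal : DirectSum.IsInternal (gr 𝒜 I) := by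
  classical
  constructor
  · rw [injective_iff_map_eq_zero]
    intro x hx
    have h1 : ∀ n, ∃ a ∈ 𝒜 n, Ideal.Quotient.mk I a = (x n : A ⧸ I) := fun n => (x n).2
    choose a ha hax using h1
    rw [DirectSum.coeAddMonoidHom_eq_dfinsuppSum, DFinsupp.sum] at hx
    have h2 : ∑ n ∈ x.support, a n ∈ I := by
      rw [← Ideal.Quotient.eq_zero_iff_mem, map_sum, ← hx]
      exact Finset.sum_congr rfl fun n _ => hax n
    ext n
    by_cases hn : n ∈ x.support
    · have h3 := hI n h2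
      rw [DirectSum.decompose_sum, DFinsupp.finsetSum_apply, AddSubmonoidClass.coe_finsetSum,
        Finset.sum_eq_single n] at h3
      · rw [DirectSum.decompose_of_mem_same 𝒜 (ha n)] at h3
        rw [← hax n]
        exact Ideal.Quotient.eq_zero_iff_mem.mpr h3
      · intro m _ hm
        exact DirectSum.decompose_of_mem_ne 𝒜 (ha m) hm
      · exact fun h => (h hn).elim
    · rw [DFinsupp.notMem_support_iff.mp hn]; rfl
  · intro x
    obtain ⟨a, rfl⟩ := Ideal.Quotient.mk_surjective x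
    refine ⟨∑ n ∈ (DirectSum.decompose 𝒜 a).support, DirectSum.of (fun n => gr 𝒜 I n) n
      ⟨Ideal.Quotient.mk I (DirectSum.decompose 𝒜 a n), mk_mem 𝒜 I (SetLike.coe_mem _)⟩, ?_⟩
    rw [map_sum]
    conv_rhs => rw [← DirectSum.sum_support_decompose 𝒜 a, map_sum]
    refine Finset.sum_congr rfl fun n _ => ?_
    rw [DirectSum.coeAddMonoidHom_of]

/-- The graded algebra structure on `A ⧸ I`, for a homogeneous ideal `I`. -/
@[implicit_reducible]
noncomputable def gradedAlgebra : GradedAlgebra (gr 𝒜 I) where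
  one_mem := mk_mem 𝒜 I SetLike.GradedOne.one_mem
  mul_mem := by
    rintro i j _ _ ⟨a, ha, rfl⟩ ⟨b, hb, rfl⟩
    exact ⟨a * b, SetLike.GradedMul.mul_mem ha hb, map_mul (Ideal.Quotient.mkₐ R I) _ _⟩
  toDecomposition := (isInternal 𝒜 hI).chooseDecomposition

/-- The quotient map as a homomorphism of graded rings. -/
def mkHom (I : Ideal A) : 𝒜 →+*ᵍ gr 𝒜 I where
  toRingHom := Ideal.Quotient.mk I
  map_mem := fun {_ _} ha => mk_mem 𝒜 I ha

omit [GradedAlgebra 𝒜] in
theorem mkHom_apply (I : Ideal A) (a : A) : mkHom 𝒜 I a = Ideal.Quotient.mk I a := rfl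

omit [GradedAlgebra 𝒜] in
theorem mkHom_surjective (I : Ideal A) : Function.Surjective (mkHom 𝒜 I) := Ideal.Quotient.mk_surjective

end Groth.Agent.Ega2.H291.QuotGr
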