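import Groth.Agent.FormalB.TwistExt
import Groth.Agent.Ega2.H291.QuotGr
import Groth.Agent.Sga5.ProjSurj
import Mathlib.AlgebraicGeometry.IdealSheaf.Subscheme

/-!
# Closed subschemes of `Proj` of a graded ring with irrelevant ideal generated by finitely many elements of degree one

For `f : ι → A` finitely many elements of degree one whose `D_+(f i)` cover `Proj 𝒜`, and an ideal sheaf `J` on `Proj 𝒜`:
* `idl f hf J : Ideal A` the homogeneous ideal of all `a` whose homogeneous parts `a_d` have `a_d / f_i^d ∈ J (D_+(f_i))`;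
* `ker_map : (Proj.map (mkHom 𝒜 (idl f hf J)) _).ker = J`;
* `exists_iso`: any closed immersion `i : Z ⟶ Proj 𝒜` is isomorphic to `Proj (A ⧸ idl) ⟶ Proj 𝒜`.
-/

set_option autoImplicit false
universe u v

open CategoryTheory CategoryTheory.Limits AlgebraicGeometry TopologicalSpace Opposite

namespace Groth.Agent.Ega2.H291.ProjClosed

open Groth.Agent.FormalB.TwistFrac Groth.Agent.FormalB.TildeOfPres Groth.Agent.FormalB.TwistExt
open Groth.Agent.Ega2.H291.QuotGr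

variable {R A : Type u} [CommRing R] [CommRing A] [Algebra R A] {𝒜 : ℕ → Submodule R A} [GradedAlgebra 𝒜]

theorem pow_mem_one {f : A} (hf : f ∈ 𝒜 1) (d : ℕ) : f ^ d ∈ 𝒜 d := by
  simpa using SetLike.pow_mem_graded d hf

/-- The standard chart `D_+(f)` as an affine open. -/
def chart (f : A) (hf : f ∈ 𝒜 1) : (Proj 𝒜).affineOpens :=
  ⟨Proj.basicOpen 𝒜 f, Proj.isAffineOpen_basicOpen 𝒜 f hf one_pos⟩

/-- The fraction `a / f ^ d` on `D_+(f)`. -/
def fr (f : A) (hf : f ∈ 𝒜 1) {d : ℕ} {a : A} (ha : a ∈ 𝒜 d) : Γ(Proj 𝒜, (chart f hf).1) :=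
  ofrac _ ha (pow_mem_one hf d) ((NV.basicOpen f).pow d)

theorem oval_add {U : (Proj 𝒜).Opens} (c d : Γ(Proj 𝒜, U)) (x : U) : oval (c + d) x = oval c x + oval d x :=
  HomogeneousLocalization.val_add _ _

theorem oval_zero {U : (Proj 𝒜).Opens} (x : U) : oval (0 : Γ(Proj 𝒜, U)) x = 0 :=
  HomogeneousLocalization.val_zero

theorem fr_add (f : A) (hf : f ∈ 𝒜 1) {d : ℕ} {a b : A} (ha : a ∈ 𝒜 d) (hb : b ∈ 𝒜 d) :
    fr f hf (add_mem ha hb) = fr f hf ha + fr f hf hb := by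
  apply oval_ext
  intro x
  rw [oval_add]
  change Localization.mk (a + b) _ = Localization.mk a _ + Localization.mk b _
  rw [Localization.add_mk_self]

theorem fr_zero (f : A) (hf : f ∈ 𝒜 1) (d : ℕ) : fr f hf (zero_mem (𝒜 d)) = 0 := by
  apply oval_ext
  intro x
  rw [oval_zero]
  exact Localization.mk_zero _

theorem fr_mul (f : A) (hf : f ∈ 𝒜 1) {d e : ℕ} {a b : A} (ha : a ∈ 𝒜 d) (hb : b ∈ 𝒜 e) :
    fr f hf (SetLike.mul_mem_graded ha hb) = fr f hf ha * fr f hf hb := by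
  rw [fr, fr, fr]
  erw [ofrac_mul]
  exact ofrac_congr (by ring)

theorem map_fr (f : A) (hf : f ∈ 𝒜 1) {d : ℕ} {a : A} (ha : a ∈ 𝒜 d) (V : (Proj 𝒜).Opens)
    (hV : V ≤ (chart f hf).1) : (Proj 𝒜).presheaf.map (homOfLE hV).op (fr f hf ha) =
      ofrac V ha (pow_mem_one hf d) (((NV.basicOpen f).pow d).mono hV) := rfl

theorem fr_congr (f : A) (hf : f ∈ 𝒜 1) {d e : ℕ} {a b : A} (ha : a ∈ 𝒜 d) (hb : b ∈ 𝒜 e)
    (h : f ^ e * a = f ^ d * b) : fr f hf ha = fr f hf hb :=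
  ofrac_congr h

theorem fr_congr' (f : A) (hf : f ∈ 𝒜 1) {d e : ℕ} {a b : A} (ha : a ∈ 𝒜 d) (hb : b ∈ 𝒜 e)
    (hd : d = e) (h : a = b) : fr f hf ha = fr f hf hb := by
  subst hd h
  rfl

variable {ι : Type v} (f : ι → A) (hf : ∀ i, f i ∈ 𝒜 1) (J : (Proj 𝒜).IdealSheafData)

/-- The condition on a homogeneous element. -/
def Cond {d : ℕ} {a : A} (ha : a ∈ 𝒜 d) : Prop := ∀ i, fr (f i) (hf i) ha ∈ J.ideal (chart (f i) (hf i))

theorem Cond.mul {d e : ℕ} {a b : A} {ha : a ∈ 𝒜 d} (hb : b ∈ 𝒜 e) (h : Cond f hf J ha) :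
    Cond f hf J (SetLike.mul_mem_graded hb ha) := fun i => by
  rw [fr_mul _ _ hb ha]
  exact Ideal.mul_mem_left _ _ (h i)

theorem cond_congr {d e : ℕ} {a b : A} (ha : a ∈ 𝒜 d) (hb : b ∈ 𝒜 e) (hd : d = e) (h : a = b) :
    Cond f hf J ha ↔ Cond f hf J hb := by
  subst hd h
  rfl

theorem cond_zero (d : ℕ) : Cond f hf J (zero_mem (𝒜 d)) := fun i => by
  rw [fr_zero]
  exact zero_mem _

theorem Cond.add {d : ℕ} {a b : A} {ha : a ∈ 𝒜 d} {hb : b ∈ 𝒜 d} (h : Cond f hf J ha) (h' : Cond f hf J hb) :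
    Cond f hf J (add_mem ha hb) := fun i => by
  rw [fr_add _ _ ha hb]
  exact add_mem (h i) (h' i)

/-- The homogeneous ideal of `A` attached to an ideal sheaf on `Proj 𝒜`. -/
def idl : Ideal A where
  carrier := {a | ∀ d, Cond f hf J (SetLike.coe_mem (DirectSum.decompose 𝒜 a d))}
  zero_mem' := fun d => (cond_congr f hf J _ (zero_mem (𝒜 d)) rfl (by simp)).mpr (cond_zero f hf J d)
  add_mem' := fun {a b} ha hb d =>
    (cond_congr f hf J _ (add_mem (SetLike.coe_mem (DirectSum.decompose 𝒜 a d))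
      (SetLike.coe_mem (DirectSum.decompose 𝒜 b d))) rfl (by simp)).mpr (Cond.add f hf J (ha d) (hb d))
  smul_mem' := fun c a ha => by
    classical
    change ∀ d, Cond f hf J (SetLike.coe_mem (DirectSum.decompose 𝒜 (c * a) d))
    induction c using DirectSum.Decomposition.inductionOn 𝒜 with
    | zero =>
      exact fun d => (cond_congr f hf J _ (zero_mem (𝒜 d)) rfl (by simp)).mpr (cond_zero f hf J d)
    | @homogeneous k c =>
      intro d
      by_cases hkd : k ≤ d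
      · refine (cond_congr f hf J _ (SetLike.mul_mem_graded c.2
          (SetLike.coe_mem (DirectSum.decompose 𝒜 a (d - k)))) (by omega) ?_).mpr
          (Cond.mul f hf J c.2 (ha (d - k)))
        exact DirectSum.coe_decompose_mul_of_left_mem_of_le 𝒜 c.2 hkd
      · refine (cond_congr f hf J _ (zero_mem (𝒜 d)) rfl ?_).mpr (cond_zero f hf J d)
        exact DirectSum.coe_decompose_mul_of_left_mem_of_not_le 𝒜 c.2 hkd
    | add c c' hc hc' =>
      intro d
      refine (cond_congr f hf J _ (add_mem (SetLike.coe_mem (DirectSum.decompose 𝒜 (c * a) d))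
        (SetLike.coe_mem (DirectSum.decompose 𝒜 (c' * a) d))) rfl (by simp [add_mul])).mpr
        (Cond.add f hf J (hc d) (hc' d))

theorem mem_idl_iff {a : A} : a ∈ idl f hf J ↔ ∀ d, Cond f hf J (SetLike.coe_mem (DirectSum.decompose 𝒜 a d)) :=
  Iff.rfl

theorem mem_idl_iff_of_mem {d : ℕ} {a : A} (ha : a ∈ 𝒜 d) : a ∈ idl f hf J ↔ Cond f hf J ha := by
  rw [mem_idl_iff]
  constructor
  · intro h
    exact (cond_congr f hf J _ _ rfl (DirectSum.decompose_of_mem_same 𝒜 ha)).mp (h d)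
  · intro h e
    by_cases hed : d = e
    · subst hed
      exact (cond_congr f hf J _ _ rfl (DirectSum.decompose_of_mem_same 𝒜 ha)).mpr h
    · exact (cond_congr f hf J _ _ rfl (DirectSum.decompose_of_mem_ne 𝒜 ha hed)).mpr (cond_zero f hf J e)

theorem idl_isHomogeneous : (idl f hf J).IsHomogeneous 𝒜 := fun d _ ha =>
  (mem_idl_iff_of_mem f hf J (SetLike.coe_mem _)).mpr (ha d)

theorem fr_pow_mul (f : A) (hf : f ∈ 𝒜 1) {g : A} (hg : g ∈ 𝒜 1) (M : ℕ) {d : ℕ} {a : A} (ha : a ∈ 𝒜 d) :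
    fr f hf (SetLike.mul_mem_graded (pow_mem_one hg M) ha) = fr f hf hg ^ M * fr f hf ha := by
  rw [fr_mul _ _ (pow_mem_one hg M) ha]
  congr 1
  induction M with
  | zero =>
    refine Eq.trans ?_ (pow_zero _).symm
    exact ofrac_eq_one _ _ _ (by simp)
  | succ M ih =>
    refine Eq.trans ?_ (pow_succ _ M).symm
    rw [← ih, ← fr_mul _ _ (pow_mem_one hg M) hg]
    exact fr_congr' _ _ _ _ rfl (pow_succ g M)

theorem exists_pow_mem {g h : A} (hg : g ∈ 𝒜 1) (hh : h ∈ 𝒜 1) {d : ℕ} {a : A} (ha : a ∈ 𝒜 d)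
    (H : fr g hg ha ∈ J.ideal (chart g hg)) :
    ∃ N, ∀ M, N ≤ M → fr h hh (SetLike.mul_mem_graded (pow_mem_one hg M) ha) ∈ J.ideal (chart h hh) := by
  set U := chart h hh with hU
  set r : Γ(Proj 𝒜, U.1) := fr h hh hg with hr
  have hV : (Proj 𝒜).basicOpen r = U.1 ⊓ Proj.basicOpen 𝒜 g := basicOpen_ofrac _ _ _
  let V : (Proj 𝒜).affineOpens := ⟨(Proj 𝒜).basicOpen r, U.2.basicOpen r⟩
  have hVU : V ≤ U := (Proj 𝒜).basicOpen_le r
  have hVg : V ≤ chart g hg := by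
    change (Proj 𝒜).basicOpen r ≤ Proj.basicOpen 𝒜 g
    rw [hV]
    exact inf_le_right
  have e1 : (Proj 𝒜).presheaf.map (homOfLE hVU).op (fr h hh ha) =
      (Proj 𝒜).presheaf.map (homOfLE hVU).op (fr h hh (pow_mem_one hg d)) *
        (Proj 𝒜).presheaf.map (homOfLE hVg).op (fr g hg ha) := by
    refine Eq.trans (map_fr h hh ha V.1 hVU) ?_
    refine Eq.trans ?_ (congrArg₂ (· * ·) (map_fr h hh (pow_mem_one hg d) V.1 hVU) (map_fr g hg ha V.1 hVg)).symm
    refine Eq.trans ?_ (ofrac_mul _ _ _ _ _ _).symm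
    exact ofrac_congr (by ring)
  have e2 : (Proj 𝒜).presheaf.map (homOfLE hVU).op (fr h hh ha) ∈ J.ideal V := by
    rw [e1]
    refine Ideal.mul_mem_left _ _ ?_
    rw [← J.map_ideal hVg]
    exact Ideal.mem_map_of_mem _ H
  rw [← J.map_ideal hVU] at e2
  have hloc := U.2.isLocalization_basicOpen r
  obtain ⟨m, ⟨N, rfl⟩, hN⟩ := (IsLocalization.algebraMap_mem_map_algebraMap_iff (Submonoid.powers r)
    Γ(Proj 𝒜, (Proj 𝒜).basicOpen r) (J.ideal U) (fr h hh ha)).mp e2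
  refine ⟨N, fun M hM => ?_⟩
  rw [fr_pow_mul h hh hg M ha, ← Nat.sub_add_cancel hM, pow_add, mul_assoc]
  exact Ideal.mul_mem_left _ _ hN

/-- The localization of the homogeneous ideal at `f i` is the ideal of `J` on `D_+(f i)`. -/
theorem exists_pow_mul_mem_idl_iff [Finite ι] (i : ι) {d : ℕ} {a : A} (ha : a ∈ 𝒜 d) :
    (∃ N, f i ^ N * a ∈ idl f hf J) ↔ fr (f i) (hf i) ha ∈ J.ideal (chart (f i) (hf i)) := by
  constructor
  · rintro ⟨N, hN⟩
    have h1 := (mem_idl_iff_of_mem f hf J (SetLike.mul_mem_graded (pow_mem_one (hf i) N) ha)).mp hN i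
    have h2 : fr (f i) (hf i) (SetLike.mul_mem_graded (pow_mem_one (hf i) N) ha) = fr (f i) (hf i) ha :=
      fr_congr _ _ _ _ (by ring)
    rwa [h2] at h1
  · intro H
    have := Fintype.ofFinite ι
    choose N hN using fun j => exists_pow_mem J (hf i) (hf j) ha H
    refine ⟨Finset.univ.sup N, ?_⟩
    rw [mem_idl_iff_of_mem f hf J (SetLike.mul_mem_graded (pow_mem_one (hf i) _) ha)]
    exact fun j => hN j _ (Finset.le_sup (Finset.mem_univ j))

/-! ### Fractions and `awayToSection` -/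

open HomogeneousLocalization in
theorem awayToSection_mk (g : A) (hg : g ∈ 𝒜 1) {d : ℕ} {a : A} (ha : a ∈ 𝒜 d) (n : ℕ) (hn : n = d) :
    Proj.awayToSection 𝒜 g (Away.mk 𝒜 hg n a (by rw [smul_eq_mul, mul_one, hn]; exact ha)) = fr g hg ha := by
  subst hn
  apply oval_ext
  intro x
  refine Eq.trans (ProjectiveSpectrum.Proj.awayToSection_apply 𝒜 g _ x) ?_
  rw [Away.val_mk, Localization.mk_eq_mk', IsLocalization.map_mk']
  exact (Localization.mk_eq_mk'_apply _ _).symm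

open HomogeneousLocalization in
/-- Every function on `D_+(g)` is a fraction. -/
theorem exists_fr (g : A) (hg : g ∈ 𝒜 1) (x : Γ(Proj 𝒜, (chart g hg).1)) :
    ∃ (d : ℕ) (a : A) (ha : a ∈ 𝒜 d), x = fr g hg ha := by
  have i1 : IsIso (Proj.awayToSection 𝒜 g) := Groth.Agent.Sga5.ProjSurj.isIso_awayToSection one_pos g hg
  obtain ⟨y, rfl⟩ := (ConcreteCategory.bijective_of_isIso (Proj.awayToSection 𝒜 g)).2 x
  obtain ⟨n, a, ha, rfl⟩ := Away.mk_surjective 𝒜 hg y
  have ha' : a ∈ 𝒜 n := by simpa using ha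
  exact ⟨n, a, ha', awayToSection_mk g hg ha' n rfl⟩

open HomogeneousLocalization in
theorem fr_eq_zero_iff (g : A) (hg : g ∈ 𝒜 1) {d : ℕ} {a : A} (ha : a ∈ 𝒜 d) :
    fr g hg ha = 0 ↔ ∃ N, g ^ N * a = 0 := by
  have i1 : IsIso (Proj.awayToSection 𝒜 g) := Groth.Agent.Sga5.ProjSurj.isIso_awayToSection one_pos g hg
  have hinj := (ConcreteCategory.bijective_of_isIso (Proj.awayToSection 𝒜 g)).1
  rw [← awayToSection_mk g hg ha d rfl]
  refine (map_eq_zero_iff (Proj.awayToSection 𝒜 g).hom hinj).trans ?_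
  rw [← (val_injective _).eq_iff, Away.val_mk, val_zero,
    ← Localization.mk_zero 1, Localization.mk_eq_mk_iff, Localization.r_iff_exists]
  constructor
  · rintro ⟨⟨_, N, rfl⟩, h⟩
    exact ⟨N, by simpa using h⟩
  · rintro ⟨N, h⟩
    exact ⟨⟨_, N, rfl⟩, by simpa using h⟩

section map

variable {B : Type u} [CommRing B] [Algebra R B] {ℬ : ℕ → Submodule R B} [GradedAlgebra ℬ] (φ : 𝒜 →+*ᵍ ℬ)
  (hφ : HomogeneousIdeal.irrelevant ℬ ≤ (HomogeneousIdeal.irrelevant 𝒜).map φ)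

theorem map_app_fr (g : A) (hg : g ∈ 𝒜 1) {d : ℕ} {a : A} (ha : a ∈ 𝒜 d) :
    (Proj.map φ hφ).app (chart g hg).1 (fr g hg ha) = fr (φ g) (φ.map_mem hg) (φ.map_mem ha) := by
  have h1 := Proj.awayToSection_comp_appLE φ hφ hg
  have h2 : (Proj.map φ hφ).app (chart g hg).1 =
    (Proj.map φ hφ).appLE (Proj.basicOpen 𝒜 g) (Proj.basicOpen ℬ (φ g)) (by rfl) := Scheme.Hom.app_eq_appLE _
  have ha' : a ∈ 𝒜 (d • 1) := by rwa [smul_eq_mul, mul_one]
  have h3 := DFunLike.congr_fun (congrArg CommRingCat.Hom.hom h2)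
    (Proj.awayToSection 𝒜 g (HomogeneousLocalization.Away.mk 𝒜 hg d a ha'))
  have h4 := DFunLike.congr_fun (congrArg CommRingCat.Hom.hom h1) (HomogeneousLocalization.Away.mk 𝒜 hg d a ha')
  rw [← awayToSection_mk g hg ha d rfl]
  refine h3.trans (h4.trans ?_)
  refine Eq.trans ?_ (awayToSection_mk (φ g) (φ.map_mem hg) (φ.map_mem ha) d rfl)
  refine congrArg (Proj.awayToSection ℬ (φ g)) ?_
  exact HomogeneousLocalization.Away.map_mk ..

theorem map_app_fr_eq_zero_iff (g : A) (hg : g ∈ 𝒜 1) {d : ℕ} {a : A} (ha : a ∈ 𝒜 d) :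
    (Proj.map φ hφ).app (chart g hg).1 (fr g hg ha) = 0 ↔ ∃ N, φ (g ^ N * a) = 0 := by
  rw [map_app_fr]
  refine Iff.trans (fr_eq_zero_iff (φ g) (φ.map_mem hg) (φ.map_mem ha)) ?_
  simp

end map

section closed

variable [Finite ι] (hcov : (HomogeneousIdeal.irrelevant 𝒜).toIdeal ≤ Ideal.span (Set.range f))

/-- The grading of `A ⧸ idl f hf J`. -/
noncomputable instance : GradedAlgebra (gr 𝒜 (idl f hf J)) := gradedAlgebra 𝒜 (idl_isHomogeneous f hf J)

omit [Finite ι] in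
theorem degSurj_mkHom : Groth.Agent.Sga5.ProjSurj.DegSurj (mkHom 𝒜 (idl f hf J)) := fun _ _ hb => hb

omit [Finite ι] in
theorem irrelevant_le : HomogeneousIdeal.irrelevant (gr 𝒜 (idl f hf J)) ≤
    (HomogeneousIdeal.irrelevant 𝒜).map (mkHom 𝒜 (idl f hf J)) :=
  Groth.Agent.Sga5.ProjSurj.irrelevant_le_map (degSurj_mkHom f hf J)

instance : IsClosedImmersion (Proj.map (mkHom 𝒜 (idl f hf J)) (irrelevant_le f hf J)) :=
  Groth.Agent.Sga5.ProjSurj.isClosedImmersion_map _ (degSurj_mkHom f hf J)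

include hcov in
theorem ker_map : (Proj.map (mkHom 𝒜 (idl f hf J)) (irrelevant_le f hf J)).ker = J := by
  refine Scheme.IdealSheafData.ext_of_iSup_eq_top (fun i => chart (f i) (hf i))
    (Proj.iSup_basicOpen_eq_top 𝒜 f hcov) fun i => ?_
  rw [Scheme.Hom.ker_apply]
  ext x
  obtain ⟨d, a, ha, rfl⟩ := exists_fr (f i) (hf i) x
  rw [RingHom.mem_ker]
  refine (map_app_fr_eq_zero_iff _ (irrelevant_le f hf J) (f i) (hf i) ha).trans ?_
  rw [← exists_pow_mul_mem_idl_iff f hf J i ha]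
  refine exists_congr fun N => ?_
  rw [mkHom_apply, Ideal.Quotient.eq_zero_iff_mem]

include hcov in
/-- Every closed immersion into `Proj 𝒜` is `Proj` of a graded quotient. -/
theorem exists_iso {Z : Scheme.{u}} (i : Z ⟶ Proj 𝒜) [IsClosedImmersion i] :
    ∃ e : Z ≅ Proj (gr 𝒜 (idl f hf i.ker)),
      e.hom ≫ Proj.map (mkHom 𝒜 (idl f hf i.ker)) (irrelevant_le f hf i.ker) = i := by
  have h := ker_map f hf i.ker hcov
  have := IsClosedImmersion.isIso_lift (Proj.map (mkHom 𝒜 (idl f hf i.ker)) (irrelevant_le f hf i.ker)) i h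
  exact ⟨asIso (IsClosedImmersion.lift (Proj.map (mkHom 𝒜 (idl f hf i.ker)) (irrelevant_le f hf i.ker)) i h.le),
    IsClosedImmersion.lift_fac _ _ _⟩

end closed

end Groth.Agent.Ega2.H291.ProjClosed
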